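import Mathlib
import Cfsg.Agent.Lib.RuSyl.Comm

/-!
# Squares and commutators modulo the second hypercentre
-/

set_option autoImplicit false

namespace Cfsg.Agent.Lib.RuSyl

open Subgroup
open scoped commutatorElement

variable {T : Type*} [Group T] [Finite T]

/-- The standing data for the computations in this file. -/
structure QData (W : Subgroup T) : Prop where
  hW : W.Normal
  hZW : Zs T 3 ≤ W
  hcom : ∀ a ∈ W, ∀ z ∈ Zs T 3, a * z = z * a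
  hsq : ∀ a ∈ W, a * a ∈ Zs T 3
  hbr : ∀ a ∈ W, ∀ b ∈ W, a * b * a⁻¹ * b⁻¹ ∈ Zs T 3
  hexp : ∀ z ∈ Zs T 3, z * z = 1

variable {W : Subgroup T}

theorem QData.conj_mem (h : QData W) (k : T) {w : T} (hw : w ∈ W) : k * w * k⁻¹ ∈ W :=
  h.hW.conj_mem _ hw k

theorem QData.inv_self (h : QData W) {z : T} (hz : z ∈ Zs T 3) : z⁻¹ = z :=
  inv_eq_of_mul_eq_one_left (h.hexp z hz)

/-- Lemma B: `z · z^k` lies in the second hypercentre. -/
theorem QData.mul_conj_mem (h : QData W) (k : T) {z : T} (hz : z ∈ Zs T 3) :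
    z * (k * z * k⁻¹) ∈ Zs T 2 := by
  have h1 : k * z * k⁻¹ * z⁻¹ ∈ Zs T 2 := conj_comm_mem hz k
  have h2 : k * z * k⁻¹ ∈ Zs T 3 := Subgroup.Normal.conj_mem inferInstance _ hz k
  have h3 := h.hcom z (h.hZW hz) _ h2
  have h4 := h.hexp z hz
  have e : z * (k * z * k⁻¹) = k * z * k⁻¹ * z⁻¹ := by
    rw [h3, h.inv_self hz]
  rw [e]
  exact h1

/-- Lemma A. -/
theorem QData.sq_sigma (h : QData W) {k : T} (hk2 : k * k ∈ W)
    (hfix : ∀ z ∈ Zs T 3, k * z * k⁻¹ = z → z ∈ Zs T 2) {w : T} (hw : w ∈ W) :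
    (w * (k * w * k⁻¹)) * (w * (k * w * k⁻¹)) ∈ Zs T 2 := by
  have hb : k * w * k⁻¹ ∈ W := h.conj_mem k hw
  set a := w with ha
  set b := k * w * k⁻¹ with hbdef
  have hc3 : b⁻¹ * a⁻¹ * b * a ∈ Zs T 3 := by
    have := h.hbr _ (W.inv_mem hb) _ (W.inv_mem hw)
    simpa using this
  set c := b⁻¹ * a⁻¹ * b * a with hc
  have hr3 : a⁻¹ * b⁻¹ * a * b ∈ Zs T 3 := by
    have := h.hbr _ (W.inv_mem hw) _ (W.inv_mem hb)
    simpa using this
  set r := a⁻¹ * b⁻¹ * a * b with hr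
  -- `c = r`
  have hcr : c * r = 1 := by
    have hrb : a * b = b * a * r := by
      rw [hr]
      group
    calc c * r = b⁻¹ * a⁻¹ * (b * a * r) := by rw [hc]; group
      _ = b⁻¹ * a⁻¹ * (a * b) := by rw [← hrb]
      _ = 1 := by group
  have hcr' : c = r := by
    have : c = r⁻¹ := eq_inv_of_mul_eq_one_left hcr
    rw [this, h.inv_self hr3]
  -- `k` fixes `r`-conjugate
  have hconj : k * c * k⁻¹ = r := by
    have hd3 : (k * k) * a * (k * k)⁻¹ * a⁻¹ ∈ Zs T 3 := h.hbr _ hk2 _ hw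
    set d := (k * k) * a * (k * k)⁻¹ * a⁻¹ with hd
    have hb' : k * b * k⁻¹ = d * a := by
      rw [hd, hbdef, ha]
      group
    have hak : k * a * k⁻¹ = b := rfl
    have e : k * c * k⁻¹ = (k * b * k⁻¹)⁻¹ * (k * a * k⁻¹)⁻¹ * (k * b * k⁻¹) * (k * a * k⁻¹) := by
      rw [hc]
      group
    rw [e, hb', hak]
    have hdb := h.hcom _ hb _ hd3
    calc (d * a)⁻¹ * b⁻¹ * (d * a) * b = a⁻¹ * d⁻¹ * b⁻¹ * d * a * b := by group
      _ = a⁻¹ * d⁻¹ * (b⁻¹ * d) * a * b := by group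
      _ = a⁻¹ * d⁻¹ * (d * b⁻¹) * a * b := by
        have : b⁻¹ * d = d * b⁻¹ := by
          rw [inv_mul_eq_iff_eq_mul, ← mul_assoc, hdb, mul_assoc, mul_inv_cancel, mul_one]
        rw [this]
      _ = r := by rw [hr]; group
  have hcZ : c ∈ Zs T 2 := hfix c hc3 (by rw [hconj, hcr'])
  have hzz : (a * a) * (b * b) ∈ Zs T 2 := by
    have e : b * b = k * (a * a) * k⁻¹ := by
      rw [hbdef, ha]
      group
    rw [e]
    exact h.mul_conj_mem k (h.hsq a hw)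
  have hab : b * a = a * b * c := by
    rw [hc]
    group
  have hcb := h.hcom _ hb _ hc3
  have e : (a * b) * (a * b) = ((a * a) * (b * b)) * c := by
    calc (a * b) * (a * b) = a * (b * a) * b := by group
      _ = a * (a * b * c) * b := by rw [hab]
      _ = a * a * b * (c * b) := by group
      _ = a * a * b * (b * c) := by rw [hcb]
      _ = ((a * a) * (b * b)) * c := by group
  rw [e]
  exact (Zs T 2).mul_mem hzz hcZ

/-- Lemma A'. -/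
theorem QData.adj (h : QData W) {k : T} (hk2 : k * k ∈ W) {v u : T} (hv : v ∈ W) (hu : u ∈ W)
    (hy : ∀ x ∈ W, (v * (k * v * k⁻¹)) * x = x * (v * (k * v * k⁻¹))) :
    v * (u * (k * u * k⁻¹)) * v⁻¹ * (u * (k * u * k⁻¹))⁻¹ ∈ Zs T 2 := by
  have hv' : k * v * k⁻¹ ∈ W := h.conj_mem k hv
  have hu' : k * u * k⁻¹ ∈ W := h.conj_mem k hu
  have hvi : k⁻¹ * v * k ∈ W := by
    have := h.conj_mem k⁻¹ hv
    simpa using this
  set v' := k * v * k⁻¹ with hv'def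
  set c := v * u * v⁻¹ * u⁻¹ with hc
  have hc3 : c ∈ Zs T 3 := h.hbr _ hv _ hu
  -- `d` relating `k⁻¹ v k` and `k v k⁻¹`
  have hd3 : (k * k) * (k⁻¹ * v * k) * (k * k)⁻¹ * (k⁻¹ * v * k)⁻¹ ∈ Zs T 3 := h.hbr _ hk2 _ hvi
  set d := (k * k) * (k⁻¹ * v * k) * (k * k)⁻¹ * (k⁻¹ * v * k)⁻¹ with hd
  have hvd : k⁻¹ * v * k = d⁻¹ * v' := by
    rw [hd, hv'def]
    group
  have hdv' := h.hcom _ hv' _ hd3
  have hdu := h.hcom _ hu _ hd3
  -- `b(v', u) = c`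
  have hb1 : v' * u * v'⁻¹ * u⁻¹ = c := by
    have h1 := hy u hu
    have h2 : v' * u * v'⁻¹ * u⁻¹ ∈ Zs T 3 := h.hbr _ hv' _ hu
    have hvcom := h.hcom _ hv _ h2
    have h3 : (v' * u * v'⁻¹ * u⁻¹) * c = 1 := by
      rw [hc]
      calc (v' * u * v'⁻¹ * u⁻¹) * (v * u * v⁻¹ * u⁻¹)
          = (v' * u * v'⁻¹ * u⁻¹) * v * u * v⁻¹ * u⁻¹ := by group
        _ = v * (v' * u * v'⁻¹ * u⁻¹) * u * v⁻¹ * u⁻¹ := by rw [← hvcom]
        _ = (v * v') * u * (v * v')⁻¹ * u⁻¹ := by group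
        _ = u * (v * v') * (v * v')⁻¹ * u⁻¹ := by rw [h1]
        _ = 1 := by group
    have := eq_inv_of_mul_eq_one_left h3
    rw [this, h.inv_self hc3]
  -- `b(v, u^k) = k c k⁻¹`
  have hb2 : v * (k * u * k⁻¹) * v⁻¹ * (k * u * k⁻¹)⁻¹ = k * c * k⁻¹ := by
    have e1 : v * (k * u * k⁻¹) * v⁻¹ * (k * u * k⁻¹)⁻¹ =
        k * ((k⁻¹ * v * k) * u * (k⁻¹ * v * k)⁻¹ * u⁻¹) * k⁻¹ := by group
    rw [e1, hvd]
    have e2 : (d⁻¹ * v') * u * (d⁻¹ * v')⁻¹ * u⁻¹ = v' * u * v'⁻¹ * u⁻¹ := by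
      have hdv2 : v' * d⁻¹ = d⁻¹ * v' := by
        rw [eq_inv_mul_iff_mul_eq, ← mul_assoc, ← hdv', mul_assoc, mul_inv_cancel, mul_one]
      have hdu2 : u * d⁻¹ = d⁻¹ * u := by
        rw [eq_inv_mul_iff_mul_eq, ← mul_assoc, ← hdu, mul_assoc, mul_inv_cancel, mul_one]
      calc (d⁻¹ * v') * u * (d⁻¹ * v')⁻¹ * u⁻¹ = d⁻¹ * (v' * u * v'⁻¹) * d * u⁻¹ := by group
        _ = d⁻¹ * (v' * (u * v'⁻¹ * d)) * u⁻¹ := by group
        _ = d⁻¹ * (v' * (u * (v'⁻¹ * d))) * u⁻¹ := by group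
        _ = d⁻¹ * (v' * (u * (d * v'⁻¹))) * u⁻¹ := by
          have : v'⁻¹ * d = d * v'⁻¹ := by
            rw [inv_mul_eq_iff_eq_mul, ← mul_assoc, hdv', mul_assoc, mul_inv_cancel, mul_one]
          rw [this]
        _ = d⁻¹ * (v' * ((u * d) * v'⁻¹)) * u⁻¹ := by group
        _ = d⁻¹ * (v' * ((d * u) * v'⁻¹)) * u⁻¹ := by rw [hdu]
        _ = d⁻¹ * ((v' * d) * u * v'⁻¹) * u⁻¹ := by group
        _ = d⁻¹ * ((d * v') * u * v'⁻¹) * u⁻¹ := by rw [hdv']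
        _ = v' * u * v'⁻¹ * u⁻¹ := by group
    rw [e2, hb1]
  -- bilinearity
  set b2 := v * (k * u * k⁻¹) * v⁻¹ * (k * u * k⁻¹)⁻¹ with hb2def
  have hb23 : b2 ∈ Zs T 3 := h.hbr _ hv _ hu'
  have hub := h.hcom _ hu _ hb23
  have e : v * (u * (k * u * k⁻¹)) * v⁻¹ * (u * (k * u * k⁻¹))⁻¹ = c * b2 := by
    calc v * (u * (k * u * k⁻¹)) * v⁻¹ * (u * (k * u * k⁻¹))⁻¹
        = c * (u * b2) * u⁻¹ := by rw [hc, hb2def]; group
      _ = c * (b2 * u) * u⁻¹ := by rw [hub]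
      _ = c * b2 := by group
  rw [e, hb2]
  exact h.mul_conj_mem k hc3

/-- Squares of products. -/
theorem sq_mul_mem {G : Type*} [Group G] (N : Subgroup G) [hN : N.Normal] {p q : G}
    (hp : p * p ∈ N) (hq : q * q ∈ N) (hpq : p * q * p⁻¹ * q⁻¹ ∈ N) : (p * q) * (p * q) ∈ N := by
  have e : (p * q) * (p * q) = (p * (p * q * p⁻¹ * q⁻¹)⁻¹ * p⁻¹) * (p * p) * (q * q) := by group
  rw [e]
  exact N.mul_mem (N.mul_mem (hN.conj_mem _ (N.inv_mem hpq) p) hp) hq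

end Cfsg.Agent.Lib.RuSyl
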