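import Mathlib
import Cfsg.Agent.Lib.RuSyl.Quad

/-!
# The centre of the centralizer of the third hypercentre
-/

set_option autoImplicit false

namespace Cfsg.Agent.Lib.RuSyl

open Subgroup
open scoped commutatorElement

variable {T : Type*} [Group T] [Finite T]

section kprops

variable {W : Subgroup T}

/-- Elements centralizing `e₂` and translating `e₃`. -/
theorem k_fix_Z2 (c1 : Nat.card ↥(Zs T 1) = 2) (c2 : Nat.card ↥(Zs T 2) = 4)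
    (l1 : Zs T 1 ≤ Zs T 2) {e₂ : T} (he₂ : e₂ ∈ Zs T 2) (he₂' : e₂ ∉ Zs T 1) {k : T}
    (hk : k * e₂ * k⁻¹ = e₂) {y : T} (hy : y ∈ Zs T 2) : k * y * k⁻¹ = y := by
  by_cases hy1 : y ∈ Zs T 1
  · exact center_conj hy1 k
  · have h := inv_mul_mem_of_card_two l1 (by rw [c1, c2]) he₂ hy he₂' hy1
    have h2 := center_conj h k
    have e : y = e₂ * (e₂⁻¹ * y) := by group
    calc k * y * k⁻¹ = (k * e₂ * k⁻¹) * (k * (e₂⁻¹ * y) * k⁻¹) := by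
          conv_lhs => rw [e]
          group
      _ = e₂ * (e₂⁻¹ * y) := by rw [hk, h2]
      _ = y := by group

theorem k_conj_e₃ {k e₃ d : T} (hd : k * e₃ * k⁻¹ * e₃⁻¹ = d) : k * e₃ * k⁻¹ = d * e₃ := by
  rw [← hd]
  group

theorem k_sq_mem (hW : W = Subgroup.centralizer ((Zs T 3 : Subgroup T) : Set T))
    (c1 : Nat.card ↥(Zs T 1) = 2) (c2 : Nat.card ↥(Zs T 2) = 4) (c3 : Nat.card ↥(Zs T 3) = 8)
    (l1 : Zs T 1 ≤ Zs T 2) (l2 : Zs T 2 ≤ Zs T 3)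
    (hexp : ∀ z ∈ Zs T 3, z * z = 1)
    {e₂ e₃ : T} (he₂ : e₂ ∈ Zs T 2) (he₂' : e₂ ∉ Zs T 1) (he₃ : e₃ ∈ Zs T 3) (he₃' : e₃ ∉ Zs T 2)
    {k d : T} (hk : k * e₂ * k⁻¹ = e₂) (hd : k * e₃ * k⁻¹ * e₃⁻¹ = d) (hdZ : d ∈ Zs T 2) :
    k * k ∈ W := by
  have h2 : (k * k) * e₂ * (k * k)⁻¹ = e₂ := by
    calc (k * k) * e₂ * (k * k)⁻¹ = k * (k * e₂ * k⁻¹) * k⁻¹ := by group
      _ = e₂ := by rw [hk, hk]
  have h3 : (k * k) * e₃ * (k * k)⁻¹ = e₃ := by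
    calc (k * k) * e₃ * (k * k)⁻¹ = k * (k * e₃ * k⁻¹) * k⁻¹ := by group
      _ = k * (d * e₃) * k⁻¹ := by rw [k_conj_e₃ hd]
      _ = (k * d * k⁻¹) * (k * e₃ * k⁻¹) := by group
      _ = d * (d * e₃) := by rw [k_fix_Z2 c1 c2 l1 he₂ he₂' hk hdZ, k_conj_e₃ hd]
      _ = (d * d) * e₃ := by group
      _ = e₃ := by rw [hexp d (l2 hdZ), one_mul]
  exact mem_W_of_fix hW (fun x hx => fix_Z3 c1 c2 c3 l1 l2 he₂ he₂' he₃ he₃' h2 h3 hx)

theorem k_fix_imp (c1 : Nat.card ↥(Zs T 1) = 2) (c2 : Nat.card ↥(Zs T 2) = 4)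
    (c3 : Nat.card ↥(Zs T 3) = 8)
    (l1 : Zs T 1 ≤ Zs T 2) (l2 : Zs T 2 ≤ Zs T 3)
    {e₂ e₃ : T} (he₂ : e₂ ∈ Zs T 2) (he₂' : e₂ ∉ Zs T 1) (he₃ : e₃ ∈ Zs T 3) (he₃' : e₃ ∉ Zs T 2)
    {k d : T} (hk : k * e₂ * k⁻¹ = e₂) (hd : k * e₃ * k⁻¹ * e₃⁻¹ = d) (hd1 : d ≠ 1)
    {z : T} (hz : z ∈ Zs T 3) (hfix : k * z * k⁻¹ = z) : z ∈ Zs T 2 := by
  by_contra hz2
  have h := inv_mul_mem_of_card_two l2 (by rw [c2, c3]) he₃ hz he₃' hz2
  have h2 := k_fix_Z2 c1 c2 l1 he₂ he₂' hk h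
  have e : k * z * k⁻¹ = d * z := by
    calc k * z * k⁻¹ = k * (e₃ * (e₃⁻¹ * z)) * k⁻¹ := by group
      _ = (k * e₃ * k⁻¹) * (k * (e₃⁻¹ * z) * k⁻¹) := by group
      _ = (d * e₃) * (e₃⁻¹ * z) := by rw [k_conj_e₃ hd, h2]
      _ = d * z := by group
  rw [e] at hfix
  exact hd1 (by simpa using hfix)

end kprops

section stab

variable {W N : Subgroup T} [W.Normal] [N.Normal]

/-- Stabilizer of a vector of the section. -/
def stabS (v : VV W N) : Subgroup T where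
  carrier := {t | act W N t v = v}
  one_mem' := act_one' W N v
  mul_mem' := by
    intro a b ha hb
    show act W N (a * b) v = v
    rw [act_mul', show act W N b v = v from hb, show act W N a v = v from ha]
  inv_mem' := by
    intro a ha
    show act W N a⁻¹ v = v
    have h := act_mul' W N a⁻¹ a v
    rw [inv_mul_cancel, act_one', show act W N a v = v from ha] at h
    exact h.symm

theorem mem_stabS (v : VV W N) (t : T) : t ∈ stabS v ↔ act W N t v = v := Iff.rfl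

end stab

/-- Conjugation-invariant subgroup used to separate `k₁` and `k₂`. -/
def D0 (T : Type*) [Group T] : Subgroup T where
  carrier := {t | ∀ x ∈ Zs T 3, t * x * t⁻¹ * x⁻¹ ∈ Zs T 1}
  one_mem' := by
    intro x _
    simp
  mul_mem' := by
    intro a b ha hb x hx
    have h1 := ha x hx
    have h2 := hb x hx
    have e : a * b * x * (a * b)⁻¹ * x⁻¹ = (a * (b * x * b⁻¹ * x⁻¹) * a⁻¹) * (a * x * a⁻¹ * x⁻¹) := by group
    rw [e]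
    exact (Zs T 1).mul_mem (Subgroup.Normal.conj_mem inferInstance _ h2 a) h1
  inv_mem' := by
    intro a ha x hx
    have hy : a⁻¹ * x * a ∈ Zs T 3 := by
      have := Subgroup.Normal.conj_mem (inferInstance : (Zs T 3).Normal) x hx a⁻¹
      simpa using this
    have h1 := (Zs T 1).inv_mem (ha _ hy)
    have e : (a * (a⁻¹ * x * a) * a⁻¹ * (a⁻¹ * x * a)⁻¹)⁻¹ = a⁻¹ * x * a⁻¹⁻¹ * x⁻¹ := by group
    rwa [e] at h1

theorem index_le_of_lt {A B : Subgroup T} (h : A < B) {m : ℕ} (hm : Nat.card T ≤ 2 * m * Nat.card A) :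
    B.index ≤ m := by
  have h1 := two_mul_card_le_of_lt h
  have h2 := Subgroup.card_mul_index B
  have h3 : 0 < Nat.card A := Nat.card_pos
  by_contra hlt
  push Not at hlt
  have h4 : (2 * Nat.card A) * (m + 1) ≤ Nat.card B * B.index := Nat.mul_le_mul h1 hlt
  rw [h2] at h4
  nlinarith

set_option maxHeartbeats 4000000 in
/-- The key contradiction: the fourth hypercentre is not central in `W`. -/
theorem no_central_Z4 (hT : IsPGroup 2 T) (ha : 2 ^ 14 ≤ Nat.card T) (hb : Nat.card ↥(Zs T 4) = 16)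
    (W : Subgroup T) (hW : W = Subgroup.centralizer ((Zs T 3 : Subgroup T) : Set T))
    (hq8 : W.index = 8) (hF : (frattini ↥W).map W.subtype = Zs T 3)
    (hV8 : Nat.card (↥W ⧸ (Zs T 3).subgroupOf W) = 2 ^ 8)
    (hexp : ∀ z ∈ Zs T 3, z * z = 1)
    (hd : ∀ U : Subgroup ↥W, U.index ≤ 16 → frattini ↥W ≤ U)
    {z : T} (hzW : z ∈ W) (hz4 : z ∈ Zs T 4) (hz3 : z ∉ Zs T 3) (hzc : ∀ x ∈ W, z * x = x * z) :
    False := by
  classical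
  haveI : Fact (Nat.Prime 2) := ⟨Nat.prime_two⟩
  haveI hWn : W.Normal := W_normal hW
  obtain ⟨c0, c1, c2, c3, l0, l1, l2, l3⟩ := chain_cards hT ha hb
  obtain ⟨e₁, he₁, he₁'⟩ := SetLike.exists_of_lt l0
  obtain ⟨e₂, he₂, he₂'⟩ := SetLike.exists_of_lt l1
  obtain ⟨e₃, he₃, he₃'⟩ := SetLike.exists_of_lt l2
  have he₁1 : e₁ ≠ 1 := fun h => he₁' (h ▸ one_mem _)
  have he₂1 : e₂ ≠ 1 := fun h => he₂' (h ▸ one_mem _)
  have hWp : IsPGroup 2 ↥W := hT.to_subgroup W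
  obtain ⟨hfr1, hfr2⟩ := Cfsg.Agent.Lib.Core.frattini_pgroup 2 hWp
  have hZW : Zs T 3 ≤ W := by
    rw [← hF]
    exact Subgroup.map_subtype_le _
  have hsq3 : ∀ a ∈ W, a * a ∈ Zs T 3 := by
    intro a ha
    rw [← hF]
    refine ⟨(⟨a, ha⟩ : W) ^ 2, hfr2 _, ?_⟩
    simp [pow_two]
  have hbr3 : ∀ a ∈ W, ∀ b ∈ W, a * b * a⁻¹ * b⁻¹ ∈ Zs T 3 := by
    intro a ha b hb
    rw [← hF]
    refine ⟨⁅(⟨a, ha⟩ : W), (⟨b, hb⟩ : W)⁆, hfr1 (Subgroup.commutator_mem_commutator trivial trivial), ?_⟩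
    simp [commutatorElement_def]
  have hcom3 : ∀ a ∈ W, ∀ z ∈ Zs T 3, a * z = z * a := fun a ha z hz => fix_of_mem_W hW ha hz
  have hQ : QData W := ⟨hWn, hZW, hcom3, hsq3, hbr3, hexp⟩
  obtain ⟨-, hsurj⟩ := index_theta hW c1 c2 c3 l1.le l2.le he₂ he₂' he₃ he₃'
  obtain ⟨k₁, hk₁2, hk₁3⟩ := hsurj hq8 1 (one_mem _) e₁ (l1.le he₁)
  obtain ⟨k₂, hk₂2, hk₂3⟩ := hsurj hq8 1 (one_mem _) e₂ he₂
  have hk₁2' : k₁ * e₂ * k₁⁻¹ = e₂ := by
    rwa [mul_inv_eq_one] at hk₁2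
  have hk₂2' : k₂ * e₂ * k₂⁻¹ = e₂ := by
    rwa [mul_inv_eq_one] at hk₂2
  have hk₁W : k₁ * k₁ ∈ W := k_sq_mem hW c1 c2 c3 l1.le l2.le hexp he₂ he₂' he₃ he₃' hk₁2' hk₁3 (l1.le he₁)
  have hk₂W : k₂ * k₂ ∈ W := k_sq_mem hW c1 c2 c3 l1.le l2.le hexp he₂ he₂' he₃ he₃' hk₂2' hk₂3 he₂
  have hk₁fix : ∀ z ∈ Zs T 3, k₁ * z * k₁⁻¹ = z → z ∈ Zs T 2 := fun z hz h =>
    k_fix_imp c1 c2 c3 l1.le l2.le he₂ he₂' he₃ he₃' hk₁2' hk₁3 he₁1 hz h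
  have hk₂fix : ∀ z ∈ Zs T 3, k₂ * z * k₂⁻¹ = z → z ∈ Zs T 2 := fun z hz h =>
    k_fix_imp c1 c2 c3 l1.le l2.le he₂ he₂' he₃ he₃' hk₂2' hk₂3 he₂1 hz h
  -- `k₁, k₂` commute modulo `W`
  have hcommW : (k₂ * k₁)⁻¹ * (k₁ * k₂) ∈ W := by
    have hfix : ∀ x : T, (k₁ * k₂) * x * (k₁ * k₂)⁻¹ = (k₂ * k₁) * x * (k₂ * k₁)⁻¹ →
        ((k₂ * k₁)⁻¹ * (k₁ * k₂)) * x * ((k₂ * k₁)⁻¹ * (k₁ * k₂))⁻¹ = x := by
      intro x hx
      calc ((k₂ * k₁)⁻¹ * (k₁ * k₂)) * x * ((k₂ * k₁)⁻¹ * (k₁ * k₂))⁻¹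
          = (k₂ * k₁)⁻¹ * ((k₁ * k₂) * x * (k₁ * k₂)⁻¹) * (k₂ * k₁) := by group
        _ = (k₂ * k₁)⁻¹ * ((k₂ * k₁) * x * (k₂ * k₁)⁻¹) * (k₂ * k₁) := by rw [hx]
        _ = x := by group
    have h2 : (k₁ * k₂) * e₂ * (k₁ * k₂)⁻¹ = (k₂ * k₁) * e₂ * (k₂ * k₁)⁻¹ := by
      calc (k₁ * k₂) * e₂ * (k₁ * k₂)⁻¹ = k₁ * (k₂ * e₂ * k₂⁻¹) * k₁⁻¹ := by group
        _ = e₂ := by rw [hk₂2', hk₁2']
        _ = k₂ * (k₁ * e₂ * k₁⁻¹) * k₂⁻¹ := by rw [hk₁2', hk₂2']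
        _ = (k₂ * k₁) * e₂ * (k₂ * k₁)⁻¹ := by group
    have h3 : (k₁ * k₂) * e₃ * (k₁ * k₂)⁻¹ = (k₂ * k₁) * e₃ * (k₂ * k₁)⁻¹ := by
      have hfe : k₁ * e₂ * k₁⁻¹ = e₂ := hk₁2'
      have hfe' : k₂ * e₁ * k₂⁻¹ = e₁ := center_conj he₁ k₂
      have hcomm := hcom3 e₁ (hZW (l2.le (l1.le he₁))) e₂ (l2.le he₂)
      calc (k₁ * k₂) * e₃ * (k₁ * k₂)⁻¹ = k₁ * (k₂ * e₃ * k₂⁻¹) * k₁⁻¹ := by group
        _ = k₁ * (e₂ * e₃) * k₁⁻¹ := by rw [k_conj_e₃ hk₂3]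
        _ = (k₁ * e₂ * k₁⁻¹) * (k₁ * e₃ * k₁⁻¹) := by group
        _ = e₂ * (e₁ * e₃) := by rw [hfe, k_conj_e₃ hk₁3]
        _ = (e₂ * e₁) * e₃ := by group
        _ = (e₁ * e₂) * e₃ := by rw [hcomm]
        _ = e₁ * (e₂ * e₃) := by group
        _ = (k₂ * e₁ * k₂⁻¹) * (k₂ * e₃ * k₂⁻¹) := by rw [hfe', k_conj_e₃ hk₂3]
        _ = k₂ * (e₁ * e₃) * k₂⁻¹ := by group
        _ = k₂ * (k₁ * e₃ * k₁⁻¹) * k₂⁻¹ := by rw [k_conj_e₃ hk₁3]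
        _ = (k₂ * k₁) * e₃ * (k₂ * k₁)⁻¹ := by group
    exact mem_W_of_fix hW (fun x hx =>
      fix_Z3 c1 c2 c3 l1.le l2.le he₂ he₂' he₃ he₃' (hfix _ h2) (hfix _ h3) hx)
  -- the section
  let N := Zs T 3
  let V := VV W N
  have hcommV : ∀ a b : V, a * b = b * a := V_comm hbr3
  have hexpV : ∀ a : V, a * a = 1 := V_exp hsq3
  have hVp : IsPGroup 2 V := V_pgroup hT
  let s : V := QuotientGroup.mk (⟨z, hzW⟩ : W)
  have hs1 : s ≠ 1 := fun h => hz3 ((mk_eq_one_iff W N _).mp h)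
  have hsf : ∀ t, act W N t s = s := by
    intro t
    exact (act_eq_iff W N t _).mpr (conj_comm_mem hz4 t)
  have hcard4 : Nat.card ↥(Zs T (3 + 1)) = 2 * Nat.card ↥(Zs T 3) := by
    show Nat.card ↥(Zs T 4) = 2 * Nat.card ↥(Zs T 3)
    rw [hb, c3]
  obtain ⟨M, hM, hcore⟩ := exists_M hT hVp (act W N) (act_one' W N) (act_mul' W N) hcommV hexpV s
    (fun v hv hvf => V_uniq hcard4 l3.le s v hs1 hv hsf hvf) hs1
  -- subgroups of `T`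
  have hk₁nW : k₁ ∉ W := by
    intro h
    have := fix_of_mem_W hW h he₃
    apply he₁1
    rw [← hk₁3, this]
    group
  have hcT : Nat.card T = 8 * Nat.card W := by
    rw [← Subgroup.card_mul_index W, hq8, mul_comm]
  set B₁ : Subgroup T := W ⊔ Subgroup.zpowers k₁ with hB₁
  have hWB₁ : W < B₁ := by
    refine lt_of_le_of_ne le_sup_left ?_
    intro he
    apply hk₁nW
    rw [he]
    exact (le_sup_right : Subgroup.zpowers k₁ ≤ B₁) (Subgroup.mem_zpowers k₁)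
  have hB₁i : B₁.index ≤ 4 := index_le_of_lt hWB₁ (by rw [hcT])
  have hB₁D : B₁ ≤ D0 T := by
    refine sup_le ?_ ?_
    · intro t ht x hx
      rw [fix_of_mem_W hW ht hx]
      simp
    · rw [Subgroup.zpowers_le]
      intro x hx
      by_cases hx2 : x ∈ Zs T 2
      · rw [k_fix_Z2 c1 c2 l1.le he₂ he₂' hk₁2' hx2]
        simp
      · have h := inv_mul_mem_of_card_two l2.le (by rw [c2, c3]) he₃ hx he₃' hx2
        have h2 := k_fix_Z2 c1 c2 l1.le he₂ he₂' hk₁2' h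
        have e : k₁ * x * k₁⁻¹ = e₁ * x := by
          calc k₁ * x * k₁⁻¹ = k₁ * (e₃ * (e₃⁻¹ * x)) * k₁⁻¹ := by group
            _ = (k₁ * e₃ * k₁⁻¹) * (k₁ * (e₃⁻¹ * x) * k₁⁻¹) := by group
            _ = (e₁ * e₃) * (e₃⁻¹ * x) := by rw [k_conj_e₃ hk₁3, h2]
            _ = e₁ * x := by group
        rw [e]
        simpa using he₁
  have hk₂nB : k₂ ∉ B₁ := by
    intro h
    have := hB₁D h e₃ he₃
    rw [hk₂3] at this
    exact he₂' this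
  set B₂ : Subgroup T := B₁ ⊔ Subgroup.zpowers k₂ with hB₂
  have hB₁B₂ : B₁ < B₂ := by
    refine lt_of_le_of_ne le_sup_left ?_
    intro he
    apply hk₂nB
    rw [he]
    exact (le_sup_right : Subgroup.zpowers k₂ ≤ B₂) (Subgroup.mem_zpowers k₂)
  have hB₂i : B₂.index ≤ 2 := by
    apply index_le_of_lt hB₁B₂
    have := two_mul_card_le_of_lt hWB₁
    rw [hcT]
    nlinarith
  let r₁ : V →* V := act W N k₁
  let r₂ : V →* V := act W N k₂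
  have hinv₁ : ∀ v, r₁ (r₁ v) = v := by
    intro v
    show act W N k₁ (act W N k₁ v) = v
    rw [← act_mul']
    exact act_W hbr3 hk₁W v
  have hinv₂ : ∀ v, r₂ (r₂ v) = v := by
    intro v
    show act W N k₂ (act W N k₂ v) = v
    rw [← act_mul']
    exact act_W hbr3 hk₂W v
  have hr₁₂ : ∀ v, r₁ (r₂ v) = r₂ (r₁ v) := by
    intro v
    show act W N k₁ (act W N k₂ v) = act W N k₂ (act W N k₁ v)
    rw [← act_mul', ← act_mul']
    have e : k₁ * k₂ = (k₂ * k₁) * ((k₂ * k₁)⁻¹ * (k₁ * k₂)) := by group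
    rw [e, act_mul', act_W hbr3 hcommW]
  have hf1 : ∀ S : Subgroup V, (∀ v ∈ S, r₁ v = v) → Nat.card S ≤ 16 := by
    intro S hS
    have := card_fixed_le (act W N) (act_one' W N) (act_mul' W N) M hM hcore B₁ S (by
      intro v hv b hb
      have hle : B₁ ≤ stabS v := by
        refine sup_le ?_ ?_
        · intro t ht
          exact act_W hbr3 ht v
        · rw [Subgroup.zpowers_le]
          exact hS v hv
      exact hle hb)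
    exact this.trans (by
      calc 2 ^ B₁.index ≤ 2 ^ 4 := Nat.pow_le_pow_right (by norm_num) hB₁i
        _ = 16 := by norm_num)
  have hf2 : ∀ S : Subgroup V, (∀ v ∈ S, r₁ v = v ∧ r₂ v = v) → Nat.card S ≤ 4 := by
    intro S hS
    have := card_fixed_le (act W N) (act_one' W N) (act_mul' W N) M hM hcore B₂ S (by
      intro v hv b hb
      have hle : B₂ ≤ stabS v := by
        refine sup_le (sup_le ?_ ?_) ?_
        · intro t ht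
          exact act_W hbr3 ht v
        · rw [Subgroup.zpowers_le]
          exact (hS v hv).1
        · rw [Subgroup.zpowers_le]
          exact (hS v hv).2
      exact hle hb)
    exact this.trans (by
      calc 2 ^ B₂.index ≤ 2 ^ 2 := Nat.pow_le_pow_right (by norm_num) hB₂i
        _ = 4 := by norm_num)
  obtain ⟨v', hv', E, hEi, hE⟩ := rank_lemma hcommV hexpV hV8 r₁ r₂ hinv₁ hinv₂ hr₁₂ hf1 hf2 s
    (hsf k₁) (hsf k₂) hs1
  -- lifts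
  obtain ⟨ŵ, rfl⟩ := QuotientGroup.mk_surjective v'
  have hσ : ∀ (k : T) (w : W), (QuotientGroup.mk w : V) * act W N k (QuotientGroup.mk w) =
      QuotientGroup.mk (⟨(w : T) * (k * w * k⁻¹), W.mul_mem w.2 (hWn.conj_mem _ w.2 k)⟩ : W) := by
    intro k w
    rw [act_mk, ← QuotientGroup.mk_mul]
    congr 1
  set v₀ : T := (ŵ : T) * (k₂ * ŵ * k₂⁻¹) with hv₀
  have hv₀W : v₀ ∈ W := W.mul_mem ŵ.2 (hWn.conj_mem _ ŵ.2 k₂)
  have hv₀eq : (QuotientGroup.mk ŵ : V) * r₂ (QuotientGroup.mk ŵ) = QuotientGroup.mk (⟨v₀, hv₀W⟩ : W) :=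
    hσ k₂ ŵ
  rw [hv₀eq] at hv' hE
  have hv'1 : (QuotientGroup.mk (⟨v₀, hv₀W⟩ : W) : V) * r₁ (QuotientGroup.mk (⟨v₀, hv₀W⟩ : W)) = s := hv'
  rw [hσ k₁ ⟨v₀, hv₀W⟩] at hv'1
  have hy1 := (mk_eq_iff W N _ _).mp hv'1
  -- the product `v₀ v₀^k₁` is central in `W`
  set y := v₀ * (k₁ * v₀ * k₁⁻¹) with hy
  have hyW : y ∈ W := W.mul_mem hv₀W (hWn.conj_mem _ hv₀W k₁)
  have hyc : ∀ x ∈ W, y * x = x * y := by
    intro x hx
    have h3 : y⁻¹ * z ∈ Zs T 3 := hy1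
    have h4 := hcom3 x hx _ ((Zs T 3).inv_mem h3)
    have e : y = z * (y⁻¹ * z)⁻¹ := by group
    rw [e]
    calc z * (y⁻¹ * z)⁻¹ * x = z * ((y⁻¹ * z)⁻¹ * x) := by group
      _ = z * (x * (y⁻¹ * z)⁻¹) := by rw [h4]
      _ = (z * x) * (y⁻¹ * z)⁻¹ := by group
      _ = (x * z) * (y⁻¹ * z)⁻¹ := by rw [hzc x hx]
      _ = x * (z * (y⁻¹ * z)⁻¹) := by group
  have hv₀sq : v₀ * v₀ ∈ Zs T 2 := hQ.sq_sigma hk₂W hk₂fix ŵ.2
  -- the subgroup of `W`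
  let Ê : Subgroup ↥W := E.comap (QuotientGroup.mk' (N.subgroupOf W))
  have hÊi : Ê.index ≤ 8 := by
    rw [Subgroup.index_comap_of_surjective _ (QuotientGroup.mk'_surjective _)]
    exact hEi
  have hsqd : ∀ (g : W) (p : T), p ∈ W → p⁻¹ * g ∈ Zs T 3 → (g : T) * g = p * p := by
    intro g p hp hd
    have h1 : (g : T) = p * (p⁻¹ * g) := by group
    have h2 := hcom3 p hp _ hd
    have h3 := hexp _ hd
    set d := p⁻¹ * (g : T) with hd'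
    rw [h1]
    calc p * d * (p * d) = p * (d * p) * d := by group
      _ = p * (p * d) * d := by rw [h2]
      _ = (p * p) * (d * d) := by group
      _ = p * p := by rw [h3, mul_one]
  have hsq2 : ∀ g ∈ Ê, g * g ∈ (Zs T 2).subgroupOf W := by
    intro g hg
    rw [Subgroup.mem_subgroupOf]
    have hg' : (QuotientGroup.mk g : V) ∈ E := hg
    obtain ⟨û, hu⟩ := hE _ hg'
    obtain ⟨û, rfl⟩ := QuotientGroup.mk_surjective û
    have hu1 : (QuotientGroup.mk û : V) * r₁ (QuotientGroup.mk û) =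
        QuotientGroup.mk (⟨(û : T) * (k₁ * û * k₁⁻¹), W.mul_mem û.2 (hWn.conj_mem _ û.2 k₁)⟩ : W) :=
      hσ k₁ û
    rw [hu1] at hu
    have hpW : (û : T) * (k₁ * û * k₁⁻¹) ∈ W := W.mul_mem û.2 (hWn.conj_mem _ û.2 k₁)
    have hpsq := hQ.sq_sigma hk₁W hk₁fix û.2
    rcases hu with hu | hu
    · have h1 := (mk_eq_iff W N _ _).mp hu.symm
      have h2 := hsqd g _ hpW h1
      show (g : T) * g ∈ Zs T 2
      rw [h2]
      exact hpsq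
    · rw [← QuotientGroup.mk_mul] at hu
      have h1 := (mk_eq_iff W N _ _).mp hu.symm
      have h2 := hsqd g _ (W.mul_mem hpW hv₀W) (by simpa using h1)
      show (g : T) * g ∈ Zs T 2
      rw [h2]
      apply sq_mul_mem (Zs T 2) hpsq hv₀sq
      have h3 := hQ.adj hk₁W hv₀W û.2 hyc
      have e : ((û : T) * (k₁ * û * k₁⁻¹)) * v₀ * ((û : T) * (k₁ * û * k₁⁻¹))⁻¹ * v₀⁻¹ =
          (v₀ * ((û : T) * (k₁ * û * k₁⁻¹)) * v₀⁻¹ * ((û : T) * (k₁ * û * k₁⁻¹))⁻¹)⁻¹ := by group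
      rw [e]
      exact (Zs T 2).inv_mem h3
  have hxE : (⟨e₃, hZW he₃⟩ : W) ∈ Ê := by
    have h1 : (QuotientGroup.mk (⟨e₃, hZW he₃⟩ : W) : V) = 1 := (mk_eq_one_iff W N _).mpr he₃
    show (QuotientGroup.mk (⟨e₃, hZW he₃⟩ : W) : V) ∈ E
    rw [h1]
    exact one_mem _
  obtain ⟨U, hxU, hUi⟩ := exists_avoid hWp ((Zs T 2).subgroupOf W) Ê hsq2 _ hxE (by
    rw [Subgroup.mem_subgroupOf]
    exact he₃')
  apply hxU
  apply hd U (by omega)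
  have : e₃ ∈ (frattini ↥W).map W.subtype := by
    rw [hF]
    exact he₃
  obtain ⟨y', hy', hyx⟩ := this
  have : y' = ⟨e₃, hZW he₃⟩ := Subtype.ext hyx
  exact this ▸ hy'

end Cfsg.Agent.Lib.RuSyl
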