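import Mathlib
import Cfsg.Agent.Lib.RuSyl.Center

/-!
# The quotient `T / W` is dihedral of order eight
-/

set_option autoImplicit false

namespace Cfsg.Agent.Lib.RuSyl

open Subgroup
open scoped commutatorElement

variable {T : Type*} [Group T] [Finite T]

theorem dih_of_card8' {G : Type*} [Group G] (t x : G) (hc : Nat.card G = 8) (ht : t * t = 1)
    (hne : t * x ≠ x * t) : Nonempty (G ≃* DihedralGroup 4) :=
  Cfsg.Agent.Lib.Known3.SimAut.dih_of_card8 hc t x ht hne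

theorem hfr2' {W : Subgroup T} (hF : (frattini ↥W).map W.subtype = Zs T 3)
    (hC : (commutator ↥W).map W.subtype = Zs T 3) (hWp : IsPGroup 2 ↥W) (a : ↥W) :
    a ^ 2 ∈ commutator ↥W := by
  haveI : Fact (Nat.Prime 2) := ⟨Nat.prime_two⟩
  have h1 : ((a ^ 2 : W) : T) ∈ (frattini ↥W).map W.subtype :=
    ⟨a ^ 2, (Cfsg.Agent.Lib.Core.frattini_pgroup 2 hWp).2 a, rfl⟩
  rw [hF, ← hC] at h1
  obtain ⟨y, hy, hyx⟩ := h1
  have : y = a ^ 2 := Subtype.ext hyx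
  exact this ▸ hy

theorem dih_part (hT : IsPGroup 2 T) (ha : 2 ^ 14 ≤ Nat.card T) (hb : Nat.card ↥(Zs T 4) = 16)
    (W : Subgroup T) (hW : W = Subgroup.centralizer ((Zs T 3 : Subgroup T) : Set T)) [hWn : W.Normal]
    (hq8 : W.index = 8) (hexp : ∀ z ∈ Zs T 3, z * z = 1) :
    Nonempty ((T ⧸ W) ≃* DihedralGroup 4) := by
  classical
  obtain ⟨c0, c1, c2, c3, l0, l1, l2, l3⟩ := chain_cards hT ha hb
  obtain ⟨e₁, he₁, he₁'⟩ := SetLike.exists_of_lt l0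
  obtain ⟨e₂, he₂, he₂'⟩ := SetLike.exists_of_lt l1
  obtain ⟨e₃, he₃, he₃'⟩ := SetLike.exists_of_lt l2
  have he₁1 : e₁ ≠ 1 := fun h => he₁' (h ▸ one_mem _)
  obtain ⟨-, hsurj⟩ := index_theta hW c1 c2 c3 l1.le l2.le he₂ he₂' he₃ he₃'
  obtain ⟨k₂, hk₂2, hk₂3⟩ := hsurj hq8 1 (one_mem _) e₂ he₂
  obtain ⟨a, ha2, ha3⟩ := hsurj hq8 e₁ he₁ 1 (one_mem _)
  have hk₂2' : k₂ * e₂ * k₂⁻¹ = e₂ := by
    rwa [mul_inv_eq_one] at hk₂2
  have ha3' : a * e₃ * a⁻¹ = e₃ := by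
    rwa [mul_inv_eq_one] at ha3
  have hk₂W : k₂ * k₂ ∈ W := k_sq_mem hW c1 c2 c3 l1.le l2.le hexp he₂ he₂' he₃ he₃' hk₂2' hk₂3 he₂
  apply dih_of_card8' (QuotientGroup.mk k₂ : T ⧸ W) (QuotientGroup.mk a : T ⧸ W)
  · exact hq8
  · rw [← QuotientGroup.mk_mul]
    exact (QuotientGroup.eq_one_iff _).mpr hk₂W
  · intro h
    rw [← QuotientGroup.mk_mul, ← QuotientGroup.mk_mul] at h
    have hg : (k₂ * a)⁻¹ * (a * k₂) ∈ W := QuotientGroup.eq.mp h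
    have h1 := fix_of_mem_W hW hg he₃
    have h2 : (a * k₂) * e₃ * (a * k₂)⁻¹ = (k₂ * a) * e₃ * (k₂ * a)⁻¹ := by
      have e : (a * k₂) = (k₂ * a) * ((k₂ * a)⁻¹ * (a * k₂)) := by group
      calc (a * k₂) * e₃ * (a * k₂)⁻¹
          = (k₂ * a) * (((k₂ * a)⁻¹ * (a * k₂)) * e₃) * (a * k₂)⁻¹ := by group
        _ = (k₂ * a) * (e₃ * ((k₂ * a)⁻¹ * (a * k₂))) * (a * k₂)⁻¹ := by rw [h1]
        _ = (k₂ * a) * e₃ * (k₂ * a)⁻¹ := by group
    have h3 : (k₂ * a) * e₃ * (k₂ * a)⁻¹ = e₂ * e₃ := by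
      calc (k₂ * a) * e₃ * (k₂ * a)⁻¹ = k₂ * (a * e₃ * a⁻¹) * k₂⁻¹ := by group
        _ = e₂ * e₃ := by rw [ha3', k_conj_e₃ hk₂3]
    have h4 : (a * k₂) * e₃ * (a * k₂)⁻¹ = (e₁ * e₂) * e₃ := by
      calc (a * k₂) * e₃ * (a * k₂)⁻¹ = a * (k₂ * e₃ * k₂⁻¹) * a⁻¹ := by group
        _ = a * (e₂ * e₃) * a⁻¹ := by rw [k_conj_e₃ hk₂3]
        _ = (a * e₂ * a⁻¹) * (a * e₃ * a⁻¹) := by group
        _ = (e₁ * e₂) * e₃ := by rw [ha3', k_conj_e₃ ha2]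
    rw [h3, h4] at h2
    apply he₁1
    have h5 : e₁ * e₂ = e₂ := mul_right_cancel h2
    exact mul_eq_right.mp h5

/-- The whole structure theorem. -/
theorem main (hT : IsPGroup 2 T) (ha : 2 ^ 14 ≤ Nat.card T) (hb : Nat.card ↥(Zs T 4) = 16)
    (W : Subgroup T) (hW : W = Subgroup.centralizer ((Zs T 3 : Subgroup T) : Set T))
    (hc : Nat.card ↥(frattini ↥W) ≤ 8) (hd : ∀ U : Subgroup ↥W, U.index ≤ 16 → frattini ↥W ≤ U) :
    Nat.card T = 2 ^ 14 ∧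
      (commutator ↥W).map W.subtype = Zs T 3 ∧
      (frattini ↥W).map W.subtype = Zs T 3 ∧
      Nat.card ↥(Subgroup.center ↥W) = 8 ∧
      Nat.card ↥(Zs T 3) = 8 ∧ (∀ z ∈ Zs T 3, z ^ 2 = 1) ∧
      (∃ (_ : W.Normal), Nonempty (T ⧸ W ≃* DihedralGroup 4)) ∧
      Nat.card (↥W ⧸ commutator ↥W) = 2 ^ 8 ∧ (∀ x : ↥W ⧸ commutator ↥W, x ^ 2 = 1) := by
  classical
  haveI : Fact (Nat.Prime 2) := ⟨Nat.prime_two⟩
  haveI hWn : W.Normal := W_normal hW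
  have hn : Group.IsNilpotent T := hT.isNilpotent
  obtain ⟨hq8, hcardT, hF, hV8⟩ := frat_part hT ha hb W hW hc
  obtain ⟨hC, hexp⟩ := comm_part hT ha hb W hW hF hd
  obtain ⟨c0, c1, c2, c3, l0, l1, l2, l3⟩ := chain_cards hT ha hb
  have hZW : Zs T 3 ≤ W := by
    rw [← hF]
    exact Subgroup.map_subtype_le _
  have hcom : (commutator ↥W) = (Zs T 3).subgroupOf W := by
    rw [← hC, Subgroup.subgroupOf, Subgroup.comap_map_eq_self_of_injective (Subgroup.subtype_injective _)]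
  have hWp : IsPGroup 2 ↥W := hT.to_subgroup W
  obtain ⟨hfr1, hfr2⟩ := Cfsg.Agent.Lib.Core.frattini_pgroup 2 hWp
  refine ⟨hcardT, hC, hF, ?_, c3, fun z hz => by rw [pow_two]; exact hexp z hz,
    ⟨hWn, dih_part hT ha hb W hW hq8 hexp⟩, ?_, ?_⟩
  · have hZc : (Subgroup.center ↥W).map W.subtype = Zs T 3 := by
      apply le_antisymm
      · by_contra hne
        haveI : ((Subgroup.center ↥W).map W.subtype).Normal := inferInstance
        obtain ⟨y, hy, hy3, hy4⟩ := exists_mem_succ_of_not_le hn _ 3 hne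
        obtain ⟨x, hx, rfl⟩ := hy
        refine no_central_Z4 hT ha hb W hW hq8 hF hV8 hexp hd x.2 hy4 hy3 ?_
        intro w hw
        have := Subgroup.mem_center_iff.mp hx ⟨w, hw⟩
        exact (congrArg Subtype.val this).symm
      · intro z hz
        refine ⟨⟨z, hZW hz⟩, Subgroup.mem_center_iff.mpr ?_, rfl⟩
        intro g
        exact Subtype.ext (fix_of_mem_W hW g.2 hz)
    rw [← c3, ← hZc, Subgroup.card_map_of_injective (Subgroup.subtype_injective _)]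
  · rw [hcom]
    exact hV8
  · intro x
    induction x using QuotientGroup.induction_on with
    | H a =>
    rw [← QuotientGroup.mk_pow, QuotientGroup.eq_one_iff]
    exact hfr2' hF hC hWp a

end Cfsg.Agent.Lib.RuSyl
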