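import Mathlib
import Cfsg.Prelude.Def_Transfer

/-!
# A Sylow `2`-subgroup without odd automorphisms gives a normal complement in its normalizer
-/

set_option autoImplicit false

namespace Cfsg.Agent.Lib.RuSyl

open Subgroup

variable {G : Type*} [Group G] [Finite G]

/-- Conjugation by an element of the normalizer, as an automorphism. -/
def conjAut (P : Subgroup G) (n : G) (hn : n ∈ Subgroup.normalizer (P : Set G)) : MulAut ↥P where
  toFun t := ⟨n * t * n⁻¹, (Subgroup.mem_normalizer_iff.mp hn t).mp t.2⟩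
  invFun t := ⟨n⁻¹ * t * n, by
    have h := (Subgroup.mem_normalizer_iff.mp hn (n⁻¹ * t * n))
    apply h.mpr
    have e : n * (n⁻¹ * (t : G) * n) * n⁻¹ = t := by group
    rw [e]
    exact t.2⟩
  left_inv t := Subtype.ext (by simp only; group)
  right_inv t := Subtype.ext (by simp only; group)
  map_mul' a b := Subtype.ext (by simp only [Subgroup.coe_mul]; group)

theorem conjAut_apply (P : Subgroup G) (n : G) (hn : n ∈ Subgroup.normalizer (P : Set G)) (t : P) :
    (conjAut P n hn t : G) = n * t * n⁻¹ := rfl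

theorem conjAut_pow (P : Subgroup G) (n : G) (hn : n ∈ Subgroup.normalizer (P : Set G)) (j : ℕ) (t : P) :
    ((conjAut P n hn ^ j) t : G) = n ^ j * t * (n ^ j)⁻¹ := by
  induction j with
  | zero => simp
  | succ j ih =>
    rw [pow_succ', MulAut.mul_apply, conjAut_apply, ih, pow_succ']
    group

theorem normal_compl_of_odd (T : Sylow 2 G)
    (hodd : ∀ (α : MulAut ↥(T : Subgroup G)) (k : ℕ), α ^ (2 * k + 1) = 1 → α = 1) :
    Cfsg.HasNormalPComplement 2 ↥(Subgroup.normalizer ((T : Subgroup G) : Set G)) := by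
  classical
  haveI : Fact (Nat.Prime 2) := ⟨Nat.prime_two⟩
  set P : Subgroup G := (T : Subgroup G) with hP
  set N := Subgroup.normalizer (P : Set G) with hN
  have hle : P ≤ N := Subgroup.le_normalizer
  let S : Sylow 2 ↥N := T.subtype hle
  have hS : (S : Subgroup ↥N) = P.subgroupOf N := Sylow.coe_subtype T hle
  haveI hSn : (S : Subgroup ↥N).Normal := by
    rw [hS]
    constructor
    intro n hn g
    rw [Subgroup.mem_subgroupOf] at *
    have := (Subgroup.mem_normalizer_iff.mp g.2 n).mp hn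
    simpa using this
  obtain ⟨H, hH⟩ := Subgroup.exists_right_complement'_of_coprime (N := (S : Subgroup ↥N)) S.card_coprime_index
  have hcH : Nat.card H = (S : Subgroup ↥N).index := hH.symm.index_eq_card.symm
  have hHodd : ¬ 2 ∣ Nat.card H := by
    rw [hcH]
    exact S.not_dvd_index
  obtain ⟨k, hk⟩ : ∃ k, Nat.card H = 2 * k + 1 := by
    have : Nat.card H % 2 = 1 := by omega
    exact ⟨Nat.card H / 2, by omega⟩
  have hcent : ∀ h ∈ H, ∀ p ∈ P, (h : G) * p = p * h := by
    intro h hh p hp
    have hpow : h ^ (2 * k + 1) = 1 := by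
      rw [← hk]
      have h0 : (⟨h, hh⟩ : H) ^ Nat.card H = 1 := pow_card_eq_one'
      have e : (((⟨h, hh⟩ : H) ^ Nat.card H : H) : ↥N) = h ^ Nat.card H := Subgroup.coe_pow _ _ _
      rw [← e, h0]
      rfl
    have hpow' : (h : G) ^ (2 * k + 1) = 1 := by
      have := congrArg Subtype.val hpow
      simpa using this
    have h1 : conjAut P h h.2 ^ (2 * k + 1) = 1 := by
      apply MulEquiv.ext
      intro t
      apply Subtype.ext
      rw [conjAut_pow, hpow']
      simp
    have h2 := hodd _ k h1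
    have h3 := congrArg (fun α : MulAut P => ((α ⟨p, hp⟩ : P) : G)) h2
    simp only [conjAut_apply] at h3
    have h4 : (h : G) * p * (h : G)⁻¹ = p := h3
    rw [mul_inv_eq_iff_eq_mul] at h4
    exact h4
  refine ⟨S, H, ?_, hH.symm⟩
  constructor
  intro x hx g
  obtain ⟨⟨p, h'⟩, hg, -⟩ := hH.existsUnique g
  have hg' : (p : N) * (h' : N) = g := hg
  have hp : ((p : N) : G) ∈ P := by
    have h1 := hS.le p.2
    rw [Subgroup.mem_subgroupOf] at h1
    exact h1
  have hy : (h' : N) * x * (h' : N)⁻¹ ∈ H := H.mul_mem (H.mul_mem h'.2 hx) (H.inv_mem h'.2)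
  have hc := hcent _ hy _ hp
  have e : g * x * g⁻¹ = (h' : N) * x * (h' : N)⁻¹ := by
    apply Subtype.ext
    rw [← hg']
    simp only [Subgroup.coe_mul, Subgroup.coe_inv]
    simp only [Subgroup.coe_mul, Subgroup.coe_inv] at hc
    calc (p : G) * (h' : G) * x * ((p : G) * (h' : G))⁻¹
        = (p : G) * ((h' : G) * x * (h' : G)⁻¹) * (p : G)⁻¹ := by group
      _ = ((h' : G) * x * (h' : G)⁻¹) * (p : G) * (p : G)⁻¹ := by rw [hc]
      _ = (h' : G) * x * (h' : G)⁻¹ := by group
  rw [e]
  exact hy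

end Cfsg.Agent.Lib.RuSyl
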