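import Mathlib
import Cfsg.Agent.Lib.RuSyl.Final

/-!
# Automorphisms of odd order of the 2-group are trivial
-/

set_option autoImplicit false

namespace Cfsg.Agent.Lib.RuSyl

open Subgroup
open scoped commutatorElement

section abstractV

variable {T V : Type*} [Group T] [Finite T] [Group V] [Finite V]

/-- The product of the first `k` iterates. -/
def psi (r : V →* V) : ℕ → V → V
  | 0, _ => 1
  | k + 1, v => psi r k v * r^[k] v

theorem psi_mul (hcomm : ∀ a b : V, a * b = b * a) (r : V →* V) (k : ℕ) (a b : V) :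
    psi r k (a * b) = psi r k a * psi r k b := by
  induction k with
  | zero => simp [psi]
  | succ k ih =>
    have hit : r^[k] (a * b) = r^[k] a * r^[k] b := iterate_map_mul r k a b
    simp only [psi]
    rw [ih, hit]
    calc psi r k a * psi r k b * (r^[k] a * r^[k] b)
        = psi r k a * (psi r k b * r^[k] a) * r^[k] b := by group
      _ = psi r k a * (r^[k] a * psi r k b) * r^[k] b := by rw [hcomm (psi r k b)]
      _ = psi r k a * r^[k] a * (psi r k b * r^[k] b) := by group

theorem psi_succ' (hcomm : ∀ a b : V, a * b = b * a) (r : V →* V) (k : ℕ) (v : V) :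
    psi r (k + 1) v = v * r (psi r k v) := by
  induction k with
  | zero => simp [psi]
  | succ k ih =>
    calc psi r (k + 1 + 1) v = psi r (k + 1) v * r^[k + 1] v := rfl
      _ = (v * r (psi r k v)) * r^[k + 1] v := by rw [ih]
      _ = v * r (psi r k v * r^[k] v) := by
        rw [map_mul, Function.iterate_succ_apply', mul_assoc]
      _ = v * r (psi r (k + 1) v) := rfl

theorem psi_comm_hom (hcomm : ∀ a b : V, a * b = b * a) (r : V →* V) (f : V →* V)
    (hf : ∀ v, f (r v) = r (f v)) (k : ℕ) (v : V) : f (psi r k v) = psi r k (f v) := by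
  have hit : ∀ j w, f (r^[j] w) = r^[j] (f w) := by
    intro j
    induction j with
    | zero => intro w; rfl
    | succ j ih =>
      intro w
      rw [Function.iterate_succ_apply', Function.iterate_succ_apply', hf, ih]
  induction k with
  | zero => simp [psi]
  | succ k ih =>
    simp only [psi]
    rw [map_mul, ih, hit]

theorem psi_fixed (hexp : ∀ v : V, v * v = 1) (r : V →* V) {s : V} (hs : r s = s) (k : ℕ) :
    psi r (2 * k + 1) s = s := by
  have hit : ∀ j, r^[j] s = s := by
    intro j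
    induction j with
    | zero => rfl
    | succ j ih => rw [Function.iterate_succ_apply', ih, hs]
  induction k with
  | zero => simp [psi, hit]
  | succ k ih =>
    have e : 2 * (k + 1) + 1 = (2 * k + 1) + 1 + 1 := by ring
    rw [e]
    have h3 : psi r (2 * k + 1 + 1 + 1) s = psi r (2 * k + 1) s * r^[2 * k + 1] s * r^[2 * k + 1 + 1] s := rfl
    rw [h3, ih, hit, hit, mul_assoc, hexp, mul_one]

/-- An automorphism of odd order commuting with the action of a `2`-group with a unique fixed
vector, fixing that vector, is trivial. -/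
theorem fix_of_odd (hT : IsPGroup 2 T) (hV : IsPGroup 2 V) (ρ : T → V →* V)
    (h1 : ∀ v, ρ 1 v = v) (hmul : ∀ s t v, ρ (s * t) v = ρ s (ρ t v))
    (hcomm : ∀ a b : V, a * b = b * a) (hexp : ∀ v : V, v * v = 1) (s : V) (hs : s ≠ 1)
    (huniq : ∀ v, v ≠ 1 → (∀ t, ρ t v = v) → v = s)
    (r : V →* V) (k : ℕ) (hr : ∀ v, r^[2 * k + 1] v = v) (hc : ∀ t v, ρ t (r v) = r (ρ t v))
    (hsr : r s = s) (v : V) : r v = v := by
  classical
  let Ψ : V →* V := MonoidHom.mk' (psi r (2 * k + 1)) (psi_mul hcomm r _)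
  have hΨ : ∀ v, Ψ v = psi r (2 * k + 1) v := fun _ => rfl
  have hfix : ∀ v, r (Ψ v) = Ψ v := by
    intro v
    have h2 := psi_succ' hcomm r (2 * k + 1) v
    have h3 : psi r (2 * k + 1 + 1) v = psi r (2 * k + 1) v * r^[2 * k + 1] v := rfl
    rw [h3, hr, hcomm] at h2
    exact (mul_left_cancel h2).symm
  have hK : Ψ.ker = ⊥ := by
    by_contra hne
    obtain ⟨w, hw, hw1, hwf⟩ := exists_fixed hT hV ρ h1 hmul Ψ.ker (by
      intro t w hw
      rw [MonoidHom.mem_ker, hΨ, ← psi_comm_hom hcomm r (ρ t) (fun v => (hc t v)) , ← hΨ,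
        MonoidHom.mem_ker.mp hw, map_one]) hne
    have := huniq w hw1 hwf
    subst this
    apply hs
    have h5 := MonoidHom.mem_ker.mp hw
    rw [hΨ, psi_fixed hexp r hsr] at h5
    exact h5
  have hrΨ : Ψ (r v) = Ψ v := by
    rw [hΨ, ← psi_comm_hom hcomm r r (fun _ => rfl), ← hΨ, hfix]
  have hw : v⁻¹ * r v ∈ Ψ.ker := by
    rw [MonoidHom.mem_ker, map_mul, map_inv, hrΨ, inv_mul_cancel]
  rw [hK, Subgroup.mem_bot] at hw
  exact (inv_mul_eq_one.mp hw).symm

end abstractV

variable {T : Type*} [Group T] [Finite T]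

/-- Stability: an odd-order automorphism fixing `A` pointwise and moving `x` by an element of `A`
fixes `x`. -/
theorem stab_fix (hT : IsPGroup 2 T) (α : MulAut T) (k : ℕ) (hα : α ^ (2 * k + 1) = 1)
    (A : Subgroup T) (hA : ∀ a ∈ A, α a = a) {x : T} (hx : x⁻¹ * α x ∈ A) : α x = x := by
  classical
  haveI : Fact (Nat.Prime 2) := ⟨Nat.prime_two⟩
  set d := x⁻¹ * α x with hd
  have hαd : α d = d := hA d hx
  have hit : ∀ j : ℕ, (α ^ j) x = x * d ^ j := by
    intro j
    induction j with
    | zero => simp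
    | succ j ih =>
      rw [pow_succ', MulAut.mul_apply, ih, map_mul, map_pow, hαd]
      have : α x = x * d := by
        rw [hd]
        group
      rw [this, pow_succ', mul_assoc]
  have h1 := hit (2 * k + 1)
  rw [hα] at h1
  have h2 : d ^ (2 * k + 1) = 1 := by
    have : x = x * d ^ (2 * k + 1) := h1
    simpa using this
  have h3 := orderOf_dvd_of_pow_eq_one h2
  obtain ⟨m, hm⟩ := (IsPGroup.iff_orderOf.mp hT) d
  rw [hm] at h3
  have hodd : Odd (2 * k + 1) := ⟨k, rfl⟩
  have hm0 : m = 0 := by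
    by_contra hne
    have : 2 ∣ 2 * k + 1 := (dvd_pow_self 2 hne).trans h3
    omega
  rw [hm0, pow_zero, orderOf_eq_one_iff] at hm
  rw [hm] at hd
  have : x⁻¹ * α x = 1 := hd.symm
  exact (inv_mul_eq_one.mp this).symm

/-- Characteristic subgroups are preserved. -/
theorem aut_mem_Zs (α : MulAut T) (i : ℕ) {x : T} : α x ∈ Zs T i ↔ x ∈ Zs T i := by
  have h : (Zs T i).Characteristic := inferInstance
  have h2 := (Subgroup.characteristic_iff_comap_eq.mp h) α
  constructor
  · intro hx
    rw [← h2]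
    exact hx
  · intro hx
    rw [← h2] at hx
    exact hx

set_option maxHeartbeats 4000000 in
/-- Odd automorphisms are trivial. -/
theorem odd_aut_trivial (hT : IsPGroup 2 T) (ha : 2 ^ 14 ≤ Nat.card T) (hb : Nat.card ↥(Zs T 4) = 16)
    (W : Subgroup T) (hW : W = Subgroup.centralizer ((Zs T 3 : Subgroup T) : Set T))
    (hc : Nat.card ↥(frattini ↥W) ≤ 8) (hd : ∀ U : Subgroup ↥W, U.index ≤ 16 → frattini ↥W ≤ U)
    (α : MulAut T) (k : ℕ) (hα : α ^ (2 * k + 1) = 1) : α = 1 := by
  classical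
  haveI : Fact (Nat.Prime 2) := ⟨Nat.prime_two⟩
  haveI hWn : W.Normal := W_normal hW
  obtain ⟨hq8, hcardT, hF, hV8⟩ := frat_part hT ha hb W hW hc
  obtain ⟨hC, hexp⟩ := comm_part hT ha hb W hW hF hd
  obtain ⟨c0, c1, c2, c3, l0, l1, l2, l3⟩ := chain_cards hT ha hb
  -- fixes the third term pointwise
  have hstep : ∀ i, Nat.card ↥(Zs T (i + 1)) = 2 * Nat.card ↥(Zs T i) → Zs T i ≤ Zs T (i + 1) →
      (∀ a ∈ Zs T i, α a = a) → ∀ a ∈ Zs T (i + 1), α a = a := by
    intro i hci hli hfix a ha
    by_cases hai : a ∈ Zs T i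
    · exact hfix a hai
    · apply stab_fix hT α k hα (Zs T i) hfix
      refine inv_mul_mem_of_card_two hli hci ha ((aut_mem_Zs α (i + 1)).mpr ha) hai ?_
      exact fun h => hai ((aut_mem_Zs α i).mp h)
  have h0 : ∀ a ∈ Zs T 0, α a = a := by
    intro a ha
    have : a = 1 := by
      rw [Zs, Subgroup.upperCentralSeries_zero, Subgroup.mem_bot] at ha
      exact ha
    rw [this, map_one]
  have hf1 := hstep 0 (by show Nat.card ↥(Zs T 1) = _; rw [c1, c0]) l0.le h0
  have hf2 := hstep 1 (by show Nat.card ↥(Zs T 2) = _; rw [c2, c1]) l1.le hf1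
  have hf3 := hstep 2 (by show Nat.card ↥(Zs T 3) = _; rw [c3, c2]) l2.le hf2
  have hWp : IsPGroup 2 ↥W := hT.to_subgroup W
  obtain ⟨hfr1, hfr2⟩ := Cfsg.Agent.Lib.Core.frattini_pgroup 2 hWp
  have hZW : Zs T 3 ≤ W := by
    rw [← hF]
    exact Subgroup.map_subtype_le _
  have hsq3 : ∀ a ∈ W, a * a ∈ Zs T 3 := by
    intro a ha
    rw [← hF]
    refine ⟨(⟨a, ha⟩ : W) ^ 2, hfr2 _, ?_⟩
    simp [pow_two]
  have hbr3 : ∀ a ∈ W, ∀ b ∈ W, a * b * a⁻¹ * b⁻¹ ∈ Zs T 3 := by
    intro a ha b hb
    rw [← hF]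
    refine ⟨⁅(⟨a, ha⟩ : W), (⟨b, hb⟩ : W)⁆, hfr1 (Subgroup.commutator_mem_commutator trivial trivial), ?_⟩
    simp [commutatorElement_def]
  -- moves elements by `W`
  have htW : ∀ t : T, t⁻¹ * α t ∈ W := by
    intro t
    apply mem_W_of_fix hW
    intro z hz
    have hz' : t * z * t⁻¹ ∈ Zs T 3 := Subgroup.Normal.conj_mem inferInstance z hz t
    have h1 : α t * z * (α t)⁻¹ = t * z * t⁻¹ := by
      have h2 := hf3 _ hz'
      rw [map_mul, map_mul, map_inv, hf3 z hz] at h2
      exact h2
    calc t⁻¹ * α t * z * (t⁻¹ * α t)⁻¹ = t⁻¹ * (α t * z * (α t)⁻¹) * t := by group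
      _ = t⁻¹ * (t * z * t⁻¹) * t := by rw [h1]
      _ = z := by group
  have hαW : ∀ w ∈ W, α w ∈ W := by
    intro w hw
    have := W.mul_mem hw (htW w)
    simpa using this
  -- the induced map on the section
  let αW : ↥W →* ↥W :=
    { toFun := fun w => ⟨α (w : T), hαW w w.2⟩
      map_one' := Subtype.ext (map_one α)
      map_mul' := fun a b => Subtype.ext (map_mul α (a : T) (b : T)) }
  let N := Zs T 3
  let V := VV W N
  let r : V →* V := QuotientGroup.map _ _ αW (by
    intro x hx
    rw [Subgroup.mem_comap, Subgroup.mem_subgroupOf] at *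
    exact (aut_mem_Zs α 3).mpr hx)
  have hr_mk : ∀ w : W, r (QuotientGroup.mk w) = QuotientGroup.mk (αW w) := fun _ => rfl
  have hcommV : ∀ a b : V, a * b = b * a := V_comm hbr3
  have hexpV : ∀ a : V, a * a = 1 := V_exp hsq3
  have hVp : IsPGroup 2 V := V_pgroup hT
  -- the unique fixed vector
  have hcard4 : Nat.card ↥(Zs T (3 + 1)) = 2 * Nat.card ↥(Zs T 3) := by
    show Nat.card ↥(Zs T 4) = 2 * Nat.card ↥(Zs T 3)
    rw [hb, c3]
  have hneW : ¬ W ≤ Zs T 3 := by
    intro h
    have h1 : Nat.card W ≤ 8 := by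
      rw [← c3]
      exact Subgroup.card_le_of_le h
    have := Subgroup.card_mul_index W
    rw [hq8, hcardT] at this
    omega
  obtain ⟨a0, ha0, ha0'⟩ := SetLike.not_le_iff_exists.mp hneW
  have hV1 : (QuotientGroup.mk (⟨a0, ha0⟩ : W) : V) ≠ 1 :=
    fun h => ha0' ((mk_eq_one_iff W N _).mp h)
  have htop : (⊤ : Subgroup V) ≠ ⊥ := by
    intro h
    apply hV1
    have : (QuotientGroup.mk (⟨a0, ha0⟩ : W) : V) ∈ (⊤ : Subgroup V) := trivial
    rw [h] at this
    exact (Subgroup.mem_bot).mp this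
  obtain ⟨s, -, hs1, hsf⟩ := exists_fixed hT hVp (act W N) (act_one' W N) (act_mul' W N) ⊤
    (fun _ _ _ => trivial) htop
  have huniq : ∀ v : V, v ≠ 1 → (∀ t, act W N t v = v) → v = s :=
    fun v hv hvf => V_uniq hcard4 l3.le s v hs1 hv hsf hvf
  -- compatibility
  have hrc : ∀ (t : T) (v : V), act W N t (r v) = r (act W N t v) := by
    intro t v
    induction v using QuotientGroup.induction_on with
    | H w =>
    rw [hr_mk, act_mk, act_mk, hr_mk]
    have e : αW (conjW W t w) = conjW W (α t) (αW w) := by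
      apply Subtype.ext
      show α ((conjW W t w : W) : T) = ((conjW W (α t) (αW w) : W) : T)
      rw [conjW_coe, conjW_coe]
      show α (t * (w : T) * t⁻¹) = α t * α (w : T) * (α t)⁻¹
      simp
    rw [e]
    have e2 : α t = t * (t⁻¹ * α t) := by group
    have h4 : act W N (α t) (QuotientGroup.mk (αW w)) = act W N t (QuotientGroup.mk (αW w)) := by
      conv_lhs => rw [e2]
      rw [act_mul', act_W hbr3 (htW t)]
    exact h4.symm
  have hrs : r s = s := by
    by_cases hrs1 : r s = 1
    · exfalso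
      induction s using QuotientGroup.induction_on with
      | H w =>
      rw [hr_mk, mk_eq_one_iff] at hrs1
      apply hs1
      rw [mk_eq_one_iff]
      exact (aut_mem_Zs α 3).mp hrs1
    · refine huniq _ hrs1 ?_
      intro t
      rw [hrc, hsf]
  have hrit : ∀ (j : ℕ) (w : W), r^[j] (QuotientGroup.mk w) =
      QuotientGroup.mk (⟨(α ^ j) (w : T), by
        induction j with
        | zero => simpa using w.2
        | succ j ih =>
          rw [pow_succ', MulAut.mul_apply]
          exact hαW _ ih⟩ : W) := by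
    intro j w
    induction j with
    | zero =>
      simp
    | succ j ih =>
      rw [Function.iterate_succ_apply', ih, hr_mk]
      congr 1
      apply Subtype.ext
      show α ((α ^ j) (w : T)) = (α ^ (j + 1)) (w : T)
      rw [pow_succ', MulAut.mul_apply]
  have hrn : ∀ v : V, r^[2 * k + 1] v = v := by
    intro v
    induction v using QuotientGroup.induction_on with
    | H w =>
    rw [hrit]
    congr 1
    apply Subtype.ext
    show (α ^ (2 * k + 1)) (w : T) = w
    rw [hα]
    rfl
  have hrfix := fix_of_odd hT hVp (act W N) (act_one' W N) (act_mul' W N) hcommV hexpV s hs1 huniq r k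
    hrn hrc hrs
  -- conclude
  have hWfix : ∀ w ∈ W, α w = w := by
    intro w hw
    apply stab_fix hT α k hα (Zs T 3) hf3
    have h1 := hrfix (QuotientGroup.mk (⟨w, hw⟩ : W))
    rw [hr_mk, mk_eq_iff] at h1
    have h3 : (α w)⁻¹ * w ∈ Zs T 3 := h1
    have h2 := (Zs T 3).inv_mem h3
    simpa using h2
  apply MulEquiv.ext
  intro t
  exact stab_fix hT α k hα W hWfix (htW t)

end Cfsg.Agent.Lib.RuSyl
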