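import Mathlib
import Cfsg.Agent.Lib.RuSyl.Final

/-!
# Weak closure of `W`
-/

set_option autoImplicit false

namespace Cfsg.Agent.Lib.RuSyl

open Subgroup
open scoped commutatorElement

/-- A subgroup of index two containing `N`, avoiding `x`. -/
theorem exists_index_two_of_exp {G : Type*} [Group G] [Finite G] (hG : IsPGroup 2 G) (N : Subgroup G)
    [hN : N.Normal] (hcomm : ∀ a b : G, a * b * a⁻¹ * b⁻¹ ∈ N) (hsq : ∀ a : G, a * a ∈ N) {x : G}
    (hx : x ∉ N) : ∃ M : Subgroup G, N ≤ M ∧ x ∉ M ∧ M.index = 2 := by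
  classical
  haveI : Fact (Nat.Prime 2) := ⟨Nat.prime_two⟩
  have hQp : IsPGroup 2 (G ⧸ N) := hG.to_quotient N
  have hfr : frattini (G ⧸ N) ≤ ⊥ := by
    apply Cfsg.Agent.Lib.Core.frattini_le_of_elementary 2
    · rw [commutator_def, Subgroup.commutator_le]
      intro a _ b _
      induction a using QuotientGroup.induction_on with
      | H a =>
      induction b using QuotientGroup.induction_on with
      | H b =>
      rw [Subgroup.mem_bot, commutatorElement_def, ← QuotientGroup.mk_inv, ← QuotientGroup.mk_inv,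
        ← QuotientGroup.mk_mul, ← QuotientGroup.mk_mul, ← QuotientGroup.mk_mul,
        QuotientGroup.eq_one_iff]
      exact hcomm a b
    · intro a
      induction a using QuotientGroup.induction_on with
      | H a =>
      rw [Subgroup.mem_bot, pow_two, ← QuotientGroup.mk_mul, QuotientGroup.eq_one_iff]
      exact hsq a
  have hx1 : (QuotientGroup.mk x : G ⧸ N) ∉ frattini (G ⧸ N) := by
    intro h
    have := hfr h
    rw [Subgroup.mem_bot, QuotientGroup.eq_one_iff] at this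
    exact hx this
  have : ∃ M : Subgroup (G ⧸ N), IsCoatom M ∧ (QuotientGroup.mk x : G ⧸ N) ∉ M := by
    by_contra hcon
    push Not at hcon
    apply hx1
    simp only [frattini, Order.radical, Subgroup.mem_iInf]
    intro M hM
    exact hcon M hM
  obtain ⟨M, hMc, hxM⟩ := this
  refine ⟨M.comap (QuotientGroup.mk' N), ?_, hxM, ?_⟩
  · intro n hn
    rw [Subgroup.mem_comap]
    have : (QuotientGroup.mk' N) n = 1 := (QuotientGroup.eq_one_iff n).mpr hn
    rw [this]
    exact one_mem _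
  · rw [Subgroup.index_comap_of_surjective _ (QuotientGroup.mk'_surjective N)]
    exact Cfsg.Agent.Lib.PGroup.index_eq_prime_of_isCoatom hQp hMc

variable {T : Type*} [Group T] [Finite T]

set_option maxHeartbeats 4000000 in
/-- Any subgroup of `T` isomorphic to `W` equals `W`. -/
theorem weak_closed (hT : IsPGroup 2 T) (ha : 2 ^ 14 ≤ Nat.card T) (hb : Nat.card ↥(Zs T 4) = 16)
    (W : Subgroup T) (hW : W = Subgroup.centralizer ((Zs T 3 : Subgroup T) : Set T))
    (hc : Nat.card ↥(frattini ↥W) ≤ 8) (hd : ∀ U : Subgroup ↥W, U.index ≤ 16 → frattini ↥W ≤ U)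
    (A : Subgroup T) (φ : ↥W ≃* ↥A) : A = W := by
  classical
  haveI : Fact (Nat.Prime 2) := ⟨Nat.prime_two⟩
  haveI hWn : W.Normal := W_normal hW
  obtain ⟨hq8, hcardT, hF, hV8⟩ := frat_part hT ha hb W hW hc
  obtain ⟨hC, hexp⟩ := comm_part hT ha hb W hW hF hd
  obtain ⟨c0, c1, c2, c3, l0, l1, l2, l3⟩ := chain_cards hT ha hb
  have hWp : IsPGroup 2 ↥W := hT.to_subgroup W
  obtain ⟨hfr1, hfr2⟩ := Cfsg.Agent.Lib.Core.frattini_pgroup 2 hWp
  have hZW : Zs T 3 ≤ W := by
    rw [← hF]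
    exact Subgroup.map_subtype_le _
  have hsq3 : ∀ a ∈ W, a * a ∈ Zs T 3 := by
    intro a ha
    rw [← hF]
    refine ⟨(⟨a, ha⟩ : W) ^ 2, hfr2 _, ?_⟩
    simp [pow_two]
  have hbr3 : ∀ a ∈ W, ∀ b ∈ W, a * b * a⁻¹ * b⁻¹ ∈ Zs T 3 := by
    intro a ha b hb
    rw [← hF]
    refine ⟨⁅(⟨a, ha⟩ : W), (⟨b, hb⟩ : W)⁆, hfr1 (Subgroup.commutator_mem_commutator trivial trivial), ?_⟩
    simp [commutatorElement_def]
  have hcom3 : ∀ a ∈ W, ∀ z ∈ Zs T 3, a * z = z * a := fun a ha z hz => fix_of_mem_W hW ha hz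
  have hfrZ : ∀ (w : W), (w : T) ∈ Zs T 3 → w ∈ frattini ↥W := by
    intro w hw
    rw [← hF] at hw
    obtain ⟨y, hy, hyx⟩ := hw
    have : y = w := Subtype.ext hyx
    exact this ▸ hy
  have hcA : Nat.card A = Nat.card W := (Nat.card_congr φ.toEquiv).symm
  -- the image of the third hypercentre
  let ψ : ↥W →* T := A.subtype.comp φ.toMonoidHom
  have hψ : ∀ w, ψ w = (φ w : T) := fun _ => rfl
  let Z' : Subgroup T := ((Zs T 3).subgroupOf W).map ψ
  have hψinj : Function.Injective ψ :=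
    (Subgroup.subtype_injective _).comp φ.injective
  have hψA : ∀ a ∈ A, ∃ w : W, ψ w = a := by
    intro a ha
    refine ⟨φ.symm ⟨a, ha⟩, ?_⟩
    rw [hψ]
    simp
  have hcZ' : Nat.card Z' = 8 := by
    rw [Subgroup.card_map_of_injective hψinj, ← c3]
    exact Nat.card_congr (Subgroup.subgroupOfEquivOfLe hZW).toEquiv
  have hZ'mem : ∀ w : W, (w : T) ∈ Zs T 3 → ψ w ∈ Z' := fun w hw =>
    ⟨w, Subgroup.mem_subgroupOf.mpr hw, rfl⟩
  have hsqA : ∀ a ∈ A, a * a ∈ Z' := by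
    intro a ha
    obtain ⟨w, rfl⟩ := hψA a ha
    rw [← map_mul]
    exact hZ'mem _ (hsq3 _ w.2)
  have hbrA : ∀ a ∈ A, ∀ b ∈ A, a * b * a⁻¹ * b⁻¹ ∈ Z' := by
    intro a ha b hb
    obtain ⟨w, rfl⟩ := hψA a ha
    obtain ⟨w', rfl⟩ := hψA b hb
    have e : ψ w * ψ w' * (ψ w)⁻¹ * (ψ w')⁻¹ = ψ (w * w' * w⁻¹ * w'⁻¹) := by
      simp only [map_mul, map_inv]
    rw [e]
    exact hZ'mem _ (hbr3 _ w.2 _ w'.2)
  have hcomZ' : ∀ a ∈ A, ∀ z ∈ Z', a * z = z * a := by
    intro a ha z hz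
    obtain ⟨w, rfl⟩ := hψA a ha
    obtain ⟨u, hu, rfl⟩ := hz
    rw [← map_mul, ← map_mul]
    congr 1
    apply Subtype.ext
    exact hcom3 _ w.2 _ (Subgroup.mem_subgroupOf.mp hu)
  have hZ'A : Z' ≤ A := by
    rintro _ ⟨u, -, rfl⟩
    exact (φ u).2
  -- intersection
  set X := W ⊓ A with hX
  have hXA : X ≤ A := inf_le_right
  have hXW : X ≤ W := inf_le_left
  have hcXA : Nat.card ↥(X.subgroupOf A) = Nat.card X :=
    Nat.card_congr (Subgroup.subgroupOfEquivOfLe hXA).toEquiv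
  have hcXW : Nat.card ↥(X.subgroupOf W) = Nat.card X :=
    Nat.card_congr (Subgroup.subgroupOfEquivOfLe hXW).toEquiv
  let f : ↥A →* T ⧸ W := (QuotientGroup.mk' W).comp A.subtype
  have hfk : f.ker = X.subgroupOf A := by
    ext a
    rw [MonoidHom.mem_ker, Subgroup.mem_subgroupOf]
    show (QuotientGroup.mk (a : T) : T ⧸ W) = 1 ↔ _
    rw [QuotientGroup.eq_one_iff]
    exact ⟨fun h => ⟨h, a.2⟩, fun h => h.1⟩
  have hprod : Nat.card X * Nat.card f.range = Nat.card A := by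
    rw [← hcXA, ← hfk, ← Subgroup.index_ker]
    exact Subgroup.card_mul_index _
  have hcQ : Nat.card (T ⧸ W) = 8 := hq8
  have hXi : ∀ m : ℕ, Nat.card f.range ≤ m → ((X.subgroupOf A).comap φ.toMonoidHom).index ≤ m := by
    intro m hm
    rw [Subgroup.index_comap_of_surjective _ φ.surjective]
    have h1 := Subgroup.card_mul_index (X.subgroupOf A)
    rw [hcXA, ← hprod] at h1
    have h2 : 0 < Nat.card X := Nat.card_pos
    have h3 := Nat.eq_of_mul_eq_mul_left h2 h1
    omega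
  have hr8 : Nat.card f.range ≤ 8 := by
    rw [← hcQ]
    exact Subgroup.card_le_card_group _
  have hZ'X : Z' ≤ X := by
    rintro _ ⟨u, hu, rfl⟩
    have h1 := hd _ ((hXi 8 hr8).trans (by norm_num)) (hfrZ u (Subgroup.mem_subgroupOf.mp hu))
    rw [Subgroup.mem_comap, Subgroup.mem_subgroupOf] at h1
    exact h1
  have hsqW : ∀ a ∈ A, a * a ∈ W := fun a ha => hXW (hZ'X (hsqA a ha))
  -- range of `f` has exponent two, hence is proper
  have hrne : f.range ≠ ⊤ := by
    intro htop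
    obtain ⟨e⟩ := dih_part hT ha hb W hW hq8 hexp
    have hg : ∃ g : T ⧸ W, g * g ≠ 1 := by
      refine ⟨e.symm (DihedralGroup.r 1), ?_⟩
      intro h
      have h2 := congrArg e h
      rw [map_mul, map_one, MulEquiv.apply_symm_apply] at h2
      exact absurd h2 (by decide)
    obtain ⟨g, hg⟩ := hg
    have hmem : g ∈ f.range := by
      rw [htop]
      trivial
    obtain ⟨a, rfl⟩ := hmem
    apply hg
    rw [← map_mul]
    exact (QuotientGroup.eq_one_iff _).mpr (hsqW a a.2)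
  have hr4 : Nat.card f.range ≤ 4 := by
    have h1 := Subgroup.card_mul_index f.range
    rw [hcQ] at h1
    have h2 : f.range.index ≠ 1 := fun h => hrne (Subgroup.index_eq_one.mp h)
    have h3 : f.range.index ≠ 0 := Subgroup.index_ne_zero_of_finite
    have h4 : 2 ≤ f.range.index := by omega
    by_contra hlt
    push Not at hlt
    have : 5 * 2 ≤ Nat.card f.range * f.range.index := Nat.mul_le_mul hlt h4
    omega
  have hWX : Nat.card W ≤ 4 * Nat.card X := by
    rw [← hcA, ← hprod, mul_comm]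
    exact Nat.mul_le_mul_right _ hr4
  by_cases hZ3Z' : Zs T 3 ≤ Z'
  · -- the centres agree
    have hZeq : Z' = Zs T 3 := (Subgroup.eq_of_le_of_card_ge hZ3Z' (by rw [hcZ', c3])).symm
    have hAW : A ≤ W := by
      intro a ha
      apply mem_W_of_fix hW
      intro x hx
      have hx' : x ∈ Z' := hZeq ▸ hx
      rw [hcomZ' a ha x hx']
      group
    exact Subgroup.eq_of_le_of_card_ge hAW (by rw [hcA])
  exfalso
  obtain ⟨z, hz3, hzZ'⟩ := SetLike.not_le_iff_exists.mp hZ3Z'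
  -- hyperplane
  have hcom33 : ∀ a b : ↥(Zs T 3), a * b = b * a := by
    intro a b
    apply Subtype.ext
    exact hcom3 _ (hZW a.2) _ b.2
  haveI hN₃ : (Z'.subgroupOf (Zs T 3)).Normal := by
    constructor
    intro n hn g
    have : g * n * g⁻¹ = n := by
      rw [hcom33 g n]
      group
    rw [this]
    exact hn
  obtain ⟨M₃, hNM, hzM, hMi⟩ := exists_index_two_of_exp (hT.to_subgroup (Zs T 3)) (Z'.subgroupOf (Zs T 3))
    (fun a b => by
      have : a * b * a⁻¹ * b⁻¹ = 1 := by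
        rw [hcom33 a b]
        group
      rw [this]
      exact one_mem _)
    (fun a => by
      have : a * a = 1 := Subtype.ext (hexp _ a.2)
      rw [this]
      exact one_mem _)
    (x := ⟨z, hz3⟩) (by
      rw [Subgroup.mem_subgroupOf]
      exact hzZ')
  set H₀ := M₃.map (Zs T 3).subtype with hH₀
  have hH₀le : H₀ ≤ Zs T 3 := Subgroup.map_subtype_le _
  have hYH : ∀ y, y ∈ Zs T 3 → y ∈ Z' → y ∈ H₀ := by
    intro y hy hy'
    exact ⟨⟨y, hy⟩, hNM (Subgroup.mem_subgroupOf.mpr hy'), rfl⟩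
  have hzH : z ∉ H₀ := by
    rintro ⟨y, hy, hyz⟩
    have : y = ⟨z, hz3⟩ := Subtype.ext hyz
    exact hzM (this ▸ hy)
  have hcH : Nat.card ↥(Zs T 3) = 2 * Nat.card H₀ := by
    rw [hH₀, Subgroup.card_map_of_injective (Subgroup.subtype_injective _)]
    have := Subgroup.card_mul_index M₃
    rw [hMi] at this
    omega
  -- commutators of `X` lie in `H₀`
  have hbrX : ∀ a ∈ X, ∀ b ∈ X, a * b * a⁻¹ * b⁻¹ ∈ H₀ := fun a ha b hb =>
    hYH _ (hbr3 _ ha.1 _ hb.1) (hbrA _ ha.2 _ hb.2)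
  let X₀ : Subgroup T :=
    { carrier := {x | x ∈ X ∧ x * x ∈ H₀}
      one_mem' := ⟨one_mem _, by simp⟩
      mul_mem' := by
        rintro x y ⟨hx, hx2⟩ ⟨hy, hy2⟩
        refine ⟨X.mul_mem hx hy, ?_⟩
        have e : (x * y) * (x * y) = (x * (y * x * y⁻¹ * x⁻¹) * x⁻¹) * (x * x) * (y * y) := by group
        rw [e]
        refine H₀.mul_mem (H₀.mul_mem ?_ hx2) hy2
        have h1 := hbrX y hy x hx
        have h2 := hcom3 x hx.1 _ (hH₀le h1)
        rw [h2, mul_inv_cancel_right]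
        exact h1
      inv_mem' := by
        rintro x ⟨hx, hx2⟩
        refine ⟨X.inv_mem hx, ?_⟩
        have : x⁻¹ * x⁻¹ = (x * x)⁻¹ := by group
        rw [this]
        exact H₀.inv_mem hx2 }
  have hX₀X : X₀ ≤ X := fun x hx => hx.1
  have hE : (X₀.subgroupOf X).index ≤ 2 := by
    apply index_le_two_of
    intro a b ha' hb'
    rw [Subgroup.mem_subgroupOf]
    have ha1 : (a : T) * a ∉ H₀ := fun h => ha' (Subgroup.mem_subgroupOf.mpr ⟨a.2, h⟩)
    have hb1 : (b : T) * b ∉ H₀ := fun h => hb' (Subgroup.mem_subgroupOf.mpr ⟨b.2, h⟩)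
    refine ⟨(a⁻¹ * b : X).2, ?_⟩
    have e : (((a⁻¹ * b : X) : T)) * ((a⁻¹ * b : X) : T) =
        ((a : T)⁻¹ * ((b : T) * (a : T)⁻¹ * (b : T)⁻¹ * ((a : T)⁻¹)⁻¹) * ((a : T)⁻¹)⁻¹) *
          (((a : T) * a)⁻¹ * ((b : T) * b)) := by
      simp only [Subgroup.coe_mul, Subgroup.coe_inv]
      group
    rw [e]
    refine H₀.mul_mem ?_ (inv_mul_mem_of_card_two hH₀le hcH (hsq3 _ (hXW a.2)) (hsq3 _ (hXW b.2)) ha1 hb1)
    have h1 := hbrX _ b.2 _ (X.inv_mem a.2)
    have h2 := hcom3 _ (W.inv_mem (hXW a.2)) _ (hH₀le h1)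
    rw [h2]
    simpa using h1
  have hcX₀ : Nat.card X ≤ 2 * Nat.card X₀ := by
    have h1 := Subgroup.card_mul_index (X₀.subgroupOf X)
    have h2 : Nat.card ↥(X₀.subgroupOf X) = Nat.card X₀ :=
      Nat.card_congr (Subgroup.subgroupOfEquivOfLe hX₀X).toEquiv
    rw [h2] at h1
    rw [← h1, mul_comm]
    exact Nat.mul_le_mul_right _ hE
  have hWX₀ : Nat.card W ≤ 8 * Nat.card X₀ := by omega
  let E₂ : Subgroup ↥W := X₀.subgroupOf W
  have hcE₂ : Nat.card E₂ = Nat.card X₀ :=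
    Nat.card_congr (Subgroup.subgroupOfEquivOfLe (hX₀X.trans hXW)).toEquiv
  have hE₂i : E₂.index ≤ 8 := by
    have h1 := Subgroup.card_mul_index E₂
    rw [hcE₂] at h1
    have h2 : 0 < Nat.card X₀ := Nat.card_pos
    by_contra hlt
    push Not at hlt
    have : Nat.card X₀ * 9 ≤ Nat.card X₀ * E₂.index := Nat.mul_le_mul_left _ hlt
    omega
  haveI hNnorm : (H₀.subgroupOf W).Normal := by
    constructor
    intro n hn g
    rw [Subgroup.mem_subgroupOf] at *
    have : ((g * n * g⁻¹ : W) : T) = n := by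
      simp only [Subgroup.coe_mul, Subgroup.coe_inv]
      rw [hcom3 _ g.2 _ (hH₀le hn)]
      group
    rw [this]
    exact hn
  -- `Z₃ ≤ X`
  have hXi2 : (X.subgroupOf W).index ≤ 16 := by
    have h1 := Subgroup.card_mul_index (X.subgroupOf W)
    rw [hcXW] at h1
    have h2 : 0 < Nat.card X := Nat.card_pos
    by_contra hlt
    push Not at hlt
    have : Nat.card X * 17 ≤ Nat.card X * (X.subgroupOf W).index := Nat.mul_le_mul_left _ hlt
    omega
  have hzX : z ∈ X := by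
    have := hd _ hXi2 (hfrZ ⟨z, hZW hz3⟩ hz3)
    rwa [Subgroup.mem_subgroupOf] at this
  have hzE : (⟨z, hZW hz3⟩ : W) ∈ E₂ := by
    rw [Subgroup.mem_subgroupOf]
    refine ⟨hzX, ?_⟩
    show z * z ∈ H₀
    rw [hexp z hz3]
    exact one_mem _
  obtain ⟨U, hzU, hUi⟩ := exists_avoid hWp (H₀.subgroupOf W) E₂ (fun g hg => by
    rw [Subgroup.mem_subgroupOf]
    have := (Subgroup.mem_subgroupOf.mp hg).2
    exact this) _ hzE (by
      rw [Subgroup.mem_subgroupOf]
      exact hzH)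
  apply hzU
  exact hd U (by omega) (hfrZ _ hz3)

end Cfsg.Agent.Lib.RuSyl
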